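import Cfsg.Agent.H951.K547.Psi

/-!
# S4547: the rows of outer 2-automorphisms, the general lemma (helper951)

`gen_main` : `S` finite, perfect, with trivial centre, `τ` an outer automorphism, of 2-power order modulo `Inn S`, which
stabilises a subgroup `M` of odd index; `F : M → Y` onto, compatible with an automorphism `θ` of `Y`; either `θ` is inner and
the Sylow 2-subgroups of `Y` are not cyclic, or `θ ^ 2` is inner and the Sylow 2-subgroups of `Y` need three generators.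
Then the Sylow 2-subgroups of `AutExt τ` need three generators.
-/

set_option autoImplicit false

namespace Cfsg.Agent.H951.K547

open Cfsg.Agent.H821.K547 Subgroup

open scoped commutatorElement

universe u v

theorem relIndex_sup_normal {G : Type u} [Group G] [Finite G] (H N : Subgroup G) [N.Normal] :
    H.relIndex (H ⊔ N) = H.relIndex N := by
  have h1 := relIndex_mul_relIndex (H ⊓ N) H (H ⊔ N) inf_le_left le_sup_left
  have h2 := relIndex_mul_relIndex (H ⊓ N) N (H ⊔ N) inf_le_right le_sup_right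
  rw [inf_relIndex_left] at h1
  rw [inf_relIndex_right, relIndex_sup_right] at h2
  rw [← h2, mul_comm] at h1
  refine Nat.eq_of_mul_eq_mul_right (Nat.pos_of_ne_zero ?_) h1
  exact FiniteIndex.index_ne_zero

theorem index_pow_two {G : Type u} [Group G] [Finite G] (L : Subgroup G) [L.Normal] (t : G)
    (hgen : ∀ g : G, g ∈ L ⊔ zpowers t) {k : ℕ} (hk : t ^ 2 ^ k ∈ L) : ∃ j, L.index = 2 ^ j := by
  have h1 : zpowers (QuotientGroup.mk t : G ⧸ L) = ⊤ := by
    rw [eq_top_iff]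
    intro x _
    induction x using QuotientGroup.induction_on with
    | H g =>
      have h2 := hgen g
      rw [← SetLike.mem_coe, normal_mul, Set.mem_mul] at h2
      obtain ⟨l, hl, y, ⟨i, rfl⟩, rfl⟩ := h2
      refine ⟨i, ?_⟩
      show (QuotientGroup.mk t : G ⧸ L) ^ i = QuotientGroup.mk (l * t ^ i)
      rw [QuotientGroup.mk_mul, (QuotientGroup.eq_one_iff l).2 hl, one_mul]
      rfl
  have h2 : L.index = orderOf (QuotientGroup.mk t : G ⧸ L) := by
    rw [← Nat.card_zpowers, h1, card_top]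
    rfl
  have h3 : orderOf (QuotientGroup.mk t : G ⧸ L) ∣ 2 ^ k := by
    apply orderOf_dvd_of_pow_eq_one
    rw [← QuotientGroup.mk_pow]
    exact (QuotientGroup.eq_one_iff _).2 hk
  rw [← h2] at h3
  obtain ⟨j, -, hj⟩ := (Nat.dvd_prime_pow Nat.prime_two).1 h3
  exact ⟨j, hj⟩

theorem d3_of_sylow {G : Type u} [Group G] [Finite G] (P : Sylow 2 G) (h : Rk 3 P) : D3 G := by
  intro Q
  exact rk_of_surj (Q.equiv P).toMonoidHom (Q.equiv P).surjective h

/-- `ext_main` inside an ambient group -/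
theorem ext_main' {A : Type u} [Group A] [Finite A] (N : Subgroup A) [hN : N.Normal] (hperf : ∀ H : Subgroup A, N ≤ H →
    N.subgroupOf H ≤ commutator H) (t : A) (htN : t ∉ N)
    (R : Subgroup A) (hR : IsPGroup 2 R) (hRH : R ≤ N ⊔ zpowers t) (hodd : ¬ 2 ∣ R.relIndex (N ⊔ zpowers t)) (htR : t ∈ R)
    (K : Subgroup A) (hK : K ≤ R ⊓ N) (hsq : ∀ x ∈ R ⊓ N, x ^ 2 ∈ K) (htK : ∀ x ∈ R ⊓ N, t * x * t⁻¹ * x⁻¹ ∈ K)
    (h4 : 4 ≤ K.relIndex (R ⊓ N)) : D3 ↥(N ⊔ zpowers t) := by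
  obtain ⟨H, hH⟩ : ∃ H, H = N ⊔ zpowers t := ⟨_, rfl⟩
  have hNH : N ≤ H := by rw [hH]; exact le_sup_left
  have htH : t ∈ H := by rw [hH]; exact mem_sup_right (mem_zpowers t)
  rw [← hH] at hRH hodd ⊢
  have hn : (N.subgroupOf H).Normal := inferInstance
  have hgen : ∀ g : H, ∃ i : ℤ, ∃ s ∈ N.subgroupOf H, g = s * (⟨t, htH⟩ : H) ^ i := by
    intro g
    have h2 : (g : A) ∈ N ⊔ zpowers t := by rw [← hH]; exact g.2
    rw [← SetLike.mem_coe, normal_mul, Set.mem_mul] at h2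
    obtain ⟨l, hl, y, ⟨i, rfl⟩, e⟩ := h2
    refine ⟨i, ⟨l, hNH hl⟩, hl, ?_⟩
    apply Subtype.ext
    rw [coe_mul, coe_zpow]
    exact e.symm
  have hRR : IsPGroup 2 (R.subgroupOf H) := hR.comap_subtype
  obtain ⟨P, hP⟩ : ∃ P : Sylow 2 H, (P : Subgroup H) = R.subgroupOf H := ⟨hRR.toSylow hodd, rfl⟩
  refine d3_of_sylow P ?_
  have htop : ∀ g : H, g ∈ N.subgroupOf H ⊔ zpowers (⟨t, htH⟩ : H) := by
    intro g
    obtain ⟨i, s, hs, rfl⟩ := hgen g
    exact mul_mem (mem_sup_left hs) (mem_sup_right ⟨i, rfl⟩)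
  obtain ⟨r, hr⟩ : ∃ r : ℕ, t ^ 2 ^ r = 1 := by
    obtain ⟨r, hr⟩ := hR ⟨t, htR⟩
    exact ⟨r, congrArg Subtype.val hr⟩
  obtain ⟨k, hk⟩ := index_pow_two (N.subgroupOf H) (⟨t, htH⟩ : H) htop (k := r) (by
    show t ^ 2 ^ r ∈ N
    rw [hr]
    exact one_mem N)
  have hk0 : 1 ≤ k := by
    rcases Nat.eq_zero_or_pos k with rfl | h
    · rw [pow_zero, index_eq_one] at hk
      exact absurd (show (⟨t, htH⟩ : H) ∈ N.subgroupOf H by rw [hk]; exact mem_top _) htN
    · exact h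
  have einf : (P : Subgroup H) ⊓ N.subgroupOf H = (R ⊓ N).subgroupOf H := by
    rw [hP]
    rfl
  refine ext_main (N.subgroupOf H) (hperf H hNH) ⟨t, htH⟩ hgen hk hk0 P ?_ (K.subgroupOf H) ?_ ?_ ?_ ?_
  · rw [hP]
    exact htR
  · rw [einf]
    exact comap_mono hK
  · rw [einf]
    intro x hx
    exact hsq x hx
  · rw [einf]
    intro x hx
    exact htK x hx
  · rw [einf, relIndex_subgroupOf (inf_le_left.trans hRH)]
    exact h4

variable {S : Type u} [Group S]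

theorem conj_conj (τ : MulAut S) (x : S) : τ * MulAut.conj x * τ⁻¹ = MulAut.conj (τ x) := by
  ext y
  simp [MulAut.mul_apply, MulAut.conj_apply]

theorem conj_inj (hc : center S = ⊥) : Function.Injective (MulAut.conj : S →* MulAut S) := by
  rw [injective_iff_map_eq_one]
  intro a ha
  have h1 : a ∈ center S := by
    rw [mem_center_iff]
    intro g
    have h2 := DFunLike.congr_fun ha g
    rw [MulAut.conj_apply, MulAut.one_apply] at h2
    rw [mul_inv_eq_iff_eq_mul] at h2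
    exact h2.symm
  rwa [hc, mem_bot] at h1

instance range_conj_normal : (MulAut.conj : S →* MulAut S).range.Normal := by
  refine ⟨fun n hn g => ?_⟩
  obtain ⟨x, rfl⟩ := hn
  rw [conj_conj]
  exact ⟨_, rfl⟩

theorem range_perf (hp : commutator S = ⊤) (H : Subgroup (MulAut S)) (h : (MulAut.conj : S →* MulAut S).range ≤ H) :
    (MulAut.conj : S →* MulAut S).range.subgroupOf H ≤ commutator H := by
  let f : S →* H := (MulAut.conj : S →* MulAut S).codRestrict H fun x => h ⟨x, rfl⟩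
  have h1 : (MulAut.conj : S →* MulAut S).range.subgroupOf H = f.range := by
    ext x
    rw [mem_subgroupOf]
    constructor
    · rintro ⟨y, hy⟩
      exact ⟨y, Subtype.ext hy⟩
    · rintro ⟨y, rfl⟩
      exact ⟨y, rfl⟩
  rw [h1, MonoidHom.range_eq_map, ← hp, commutator_def, commutator_def, map_commutator]
  exact commutator_mono le_top le_top

/-- the core: `τ ^ 2 ^ k = conj s` with `s ∈ M` -/
theorem gen_core [Finite S] (hc : center S = ⊥) (hp : commutator S = ⊤) (τ : MulAut S) (hni : ¬ IsInn τ)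
    (M : Subgroup S) (hM : ¬ 2 ∣ M.index) (hst : ∀ x, τ x ∈ M ↔ x ∈ M)
    {k : ℕ} {s : S} (hs : s ∈ M) (hτ : τ ^ 2 ^ k = MulAut.conj s)
    {Y : Type v} [Group Y] [Finite Y] (F : M →* Y) (hF : Function.Surjective F) (θ : MulAut Y)
    (hθ : ∀ m m' : M, (m' : S) = τ m → F m' = θ (F m))
    (hY : ((∃ b, θ = MulAut.conj b) ∧ ∀ Q : Sylow 2 Y, Rk 2 Q) ∨ ((∃ b, θ ^ 2 = MulAut.conj b) ∧ D3 Y)) :
    D3 (AutExt τ) := by
  have hinj := conj_inj hc
  have hfin : Finite (MulAut S) := inferInstance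
  obtain ⟨N, hN⟩ : ∃ N, N = (MulAut.conj : S →* MulAut S).range := ⟨_, rfl⟩
  have hNn : N.Normal := by rw [hN]; infer_instance
  have hperf : ∀ H : Subgroup (MulAut S), N ≤ H → N.subgroupOf H ≤ commutator H := by
    rw [hN]
    exact fun H h => range_perf hp H h
  have hτN : τ ∉ N := by
    rw [hN]
    rintro ⟨b, hb⟩
    exact hni ⟨b, fun x => by rw [← hb, MulAut.conj_apply]⟩
  have hAE : AutExt τ = N ⊔ zpowers τ := by rw [hN]; rfl
  let c : S →* MulAut S := MulAut.conj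
  obtain ⟨L, hL⟩ : ∃ L, L = M.map c := ⟨_, rfl⟩
  have hLN : L ≤ N := by
    rw [hL, hN]
    rintro _ ⟨x, -, rfl⟩
    exact ⟨x, rfl⟩
  have hcL : ∀ x, c x ∈ L ↔ x ∈ M := by
    intro x
    rw [hL]
    exact mem_map_iff_mem hinj
  have hLidx : L.relIndex N = M.index := by
    rw [hL, hN, MonoidHom.range_eq_map]
    rw [← relIndex_top_right M]
    exact relIndex_map_map_of_injective M ⊤ hinj
  -- `τ` normalises `L`
  have hτn : τ ∈ normalizer (L : Set (MulAut S)) := by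
    rw [mem_normalizer_iff]
    intro x
    constructor
    · intro hx
      have hx' : x ∈ N := hLN hx
      rw [hN] at hx'
      obtain ⟨y, rfl⟩ := hx'
      rw [conj_conj]
      exact (hcL _).2 ((hst y).2 ((hcL y).1 hx))
    · intro hx
      have hx' : τ * x * τ⁻¹ ∈ N := hLN hx
      have hx2 : x ∈ N := by
        have := hNn.conj_mem _ hx' τ⁻¹
        rwa [show τ⁻¹ * (τ * x * τ⁻¹) * τ⁻¹⁻¹ = x by group] at this
      rw [hN] at hx2
      obtain ⟨y, rfl⟩ := hx2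
      rw [conj_conj] at hx
      exact (hcL _).2 ((hst y).1 ((hcL _).1 hx))
  obtain ⟨HM, hHM⟩ : ∃ HM, HM = L ⊔ zpowers τ := ⟨_, rfl⟩
  have hLHM : L ≤ HM := by rw [hHM]; exact le_sup_left
  have hτHM : τ ∈ HM := by rw [hHM]; exact mem_sup_right (mem_zpowers τ)
  have hHMn : HM ≤ normalizer (L : Set (MulAut S)) := by
    rw [hHM]
    exact sup_le le_normalizer (by rw [zpowers_le]; exact hτn)
  have hLn : (L.subgroupOf HM).Normal := normal_subgroupOf_of_le_normalizer hHMn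
  have hgenHM : ∀ g : HM, g ∈ L.subgroupOf HM ⊔ zpowers (⟨τ, hτHM⟩ : HM) := by
    have h1 : (⊤ : Subgroup HM) = L.subgroupOf HM ⊔ zpowers (⟨τ, hτHM⟩ : HM) := by
      have h2 : (⊤ : Subgroup HM) = (L ⊔ zpowers τ).subgroupOf HM := by rw [← hHM, subgroupOf_self]
      have h3 : (zpowers τ).subgroupOf HM = zpowers (⟨τ, hτHM⟩ : HM) := by
        ext x
        rw [mem_subgroupOf, mem_zpowers_iff, mem_zpowers_iff]
        exact exists_congr fun i => ⟨fun h => Subtype.ext (by rw [coe_zpow]; exact h), fun h => by rw [← h, coe_zpow]⟩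
      rw [h2, ← h3]
      exact subgroupOf_sup hLHM (by rw [zpowers_le]; exact hτHM)
    intro g
    rw [← h1]
    exact mem_top g
  obtain ⟨j, hj⟩ := index_pow_two (L.subgroupOf HM) (⟨τ, hτHM⟩ : HM) hgenHM (k := k) (by
    show τ ^ 2 ^ k ∈ L
    rw [hτ]
    exact (hcL s).2 hs)
  have hj' : L.relIndex HM = 2 ^ j := hj
  -- `HM ⊓ N = L`
  have hinf : HM ⊓ N ≤ L := by
    have h1 : L.relIndex (HM ⊓ N) ∣ 2 ^ j := by
      rw [← hj', ← relIndex_mul_relIndex L (HM ⊓ N) HM (le_inf hLHM hLN) inf_le_left]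
      exact dvd_mul_right _ _
    have h2 : L.relIndex (HM ⊓ N) ∣ M.index := by
      rw [← hLidx, ← relIndex_mul_relIndex L (HM ⊓ N) N (le_inf hLHM hLN) inf_le_right]
      exact dvd_mul_right _ _
    obtain ⟨i, -, hi⟩ := (Nat.dvd_prime_pow Nat.prime_two).1 h1
    have h3 : i = 0 := by
      by_contra h
      apply hM
      refine Dvd.dvd.trans ?_ h2
      rw [hi]
      exact dvd_pow_self 2 h
    rw [h3, pow_zero, relIndex_eq_one] at hi
    exact hi
  -- the Sylow subgroup of `HM`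
  obtain ⟨R0⟩ : Nonempty (Sylow 2 HM) := inferInstance
  obtain ⟨R, hR⟩ : ∃ R : Subgroup (MulAut S), R = (R0 : Subgroup HM).map HM.subtype := ⟨_, rfl⟩
  have hR2 : IsPGroup 2 R := by rw [hR]; exact R0.isPGroup'.map _
  have hRHM : R ≤ HM := by
    rw [hR]
    rintro _ ⟨x, -, rfl⟩
    exact x.2
  have hRsub : R.subgroupOf HM = (R0 : Subgroup HM) := by
    rw [hR, subgroupOf, comap_map_eq_self_of_injective HM.subtype_injective]
  have hRtop : (R0 : Subgroup HM) ⊔ L.subgroupOf HM = ⊤ := by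
    have h1 : ((R0 : Subgroup HM) ⊔ L.subgroupOf HM).index ∣ (R0 : Subgroup HM).index := index_dvd_of_le le_sup_left
    have h2 : ((R0 : Subgroup HM) ⊔ L.subgroupOf HM).index ∣ 2 ^ j := by
      rw [← hj]
      exact index_dvd_of_le le_sup_right
    obtain ⟨i, -, hi⟩ := (Nat.dvd_prime_pow Nat.prime_two).1 h2
    have h3 : i = 0 := by
      by_contra h
      apply R0.not_dvd_index
      refine Dvd.dvd.trans ?_ h1
      rw [hi]
      exact dvd_pow_self 2 h
    rwa [h3, pow_zero, index_eq_one] at hi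
  -- `t = τ c(m0) ∈ R`
  obtain ⟨m0, hm0, htR⟩ : ∃ m0 ∈ M, τ * c m0 ∈ R := by
    have h1 : (⟨τ, hτHM⟩ : HM) ∈ (R0 : Subgroup HM) ⊔ L.subgroupOf HM := by rw [hRtop]; exact mem_top _
    rw [← SetLike.mem_coe, mul_normal, Set.mem_mul] at h1
    obtain ⟨x, hx, y, hy, e⟩ := h1
    have hy' : (y : MulAut S) ∈ L := hy
    have hy2 := hLN hy'
    rw [hN] at hy2
    obtain ⟨m, hm⟩ := hy2
    have hmM : m ∈ M := (hcL m).1 (by show MulAut.conj m ∈ L; rw [hm]; exact hy')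
    refine ⟨m⁻¹, inv_mem hmM, ?_⟩
    have e' : (x : MulAut S) * y = τ := congrArg Subtype.val e
    have h2 : τ * c m⁻¹ = x := by
      rw [map_inv, ← e']
      show (x : MulAut S) * y * (MulAut.conj m)⁻¹ = x
      rw [hm]
      group
    rw [h2, hR]
    exact ⟨x, hx, rfl⟩
  obtain ⟨t, ht⟩ : ∃ t, t = τ * c m0 := ⟨_, rfl⟩
  rw [← ht] at htR
  have hsup : N ⊔ zpowers τ = N ⊔ zpowers t := by
    have hcm : c m0 ∈ N := hLN ((hcL m0).2 hm0)
    apply le_antisymm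
    · refine sup_le le_sup_left ?_
      rw [zpowers_le]
      have : τ = t * (c m0)⁻¹ := by rw [ht]; group
      rw [this]
      exact mul_mem (mem_sup_right (mem_zpowers t)) (mem_sup_left (inv_mem hcm))
    · refine sup_le le_sup_left ?_
      rw [zpowers_le, ht]
      exact mul_mem (mem_sup_right (mem_zpowers τ)) (mem_sup_left hcm)
  have htN : t ∉ N := by
    intro h
    apply hτN
    have : τ = t * (c m0)⁻¹ := by rw [ht]; group
    rw [this]
    exact mul_mem h (inv_mem (hLN ((hcL m0).2 hm0)))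
  -- odd index
  have hodd : ¬ 2 ∣ R.relIndex (N ⊔ zpowers t) := by
    have h0 : HM ⊔ N = N ⊔ zpowers t := by
      rw [← hsup, hHM]
      apply le_antisymm
      · exact sup_le (sup_le (hLN.trans le_sup_left) le_sup_right) le_sup_left
      · exact sup_le le_sup_right (le_sup_right.trans le_sup_left)
    rw [← h0, ← relIndex_mul_relIndex R HM (HM ⊔ N) hRHM le_sup_left, relIndex_sup_normal]
    intro h
    rcases (Nat.Prime.dvd_mul Nat.prime_two).1 h with h | h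
    · apply R0.not_dvd_index
      rw [← hRsub]
      exact h
    · apply hM
      rw [← hLidx]
      exact h.trans (relIndex_dvd_of_le_left N hLHM)
  -- the Sylow subgroup of `M`
  have hQ1M : R.comap c ≤ M := by
    intro x hx
    have h1 : c x ∈ L := hinf ⟨hRHM hx, by rw [hN]; exact ⟨x, rfl⟩⟩
    exact (hcL x).1 h1
  obtain ⟨Q1, hQ1⟩ : ∃ Q1 : Subgroup M, Q1 = (R.comap c).subgroupOf M := ⟨_, rfl⟩
  have hQ1mem : ∀ m : M, m ∈ Q1 ↔ c m ∈ R := by
    intro m
    rw [hQ1]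
    rfl
  have hQ1p : IsPGroup 2 Q1 := by
    intro x
    obtain ⟨r, hr⟩ := hR2 ⟨c (x : M), (hQ1mem x).1 x.2⟩
    refine ⟨r, ?_⟩
    have h1 : (c ((x : M) : S)) ^ 2 ^ r = 1 := congrArg Subtype.val hr
    rw [← map_pow, ← map_one c] at h1
    exact Subtype.ext (Subtype.ext (hinj h1))
  have hQ1i : ¬ 2 ∣ Q1.index := by
    have h1 : Q1.index = (R0 : Subgroup HM).index := by
      rw [hQ1]
      show (R.comap c).relIndex M = _
      rw [relIndex_comap, ← hL, ← relIndex_subgroupOf hLHM, hRsub, ← relIndex_sup_normal, hRtop, relIndex_top_right]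
    rw [h1]
    exact R0.not_dvd_index
  -- the image in `Y`
  obtain ⟨Q, hQ⟩ : ∃ Q : Subgroup Y, Q = Q1.map F := ⟨_, rfl⟩
  have hQp : IsPGroup 2 Q := by rw [hQ]; exact hQ1p.map F
  have hQi : ¬ 2 ∣ Q.index := by
    rw [hQ]
    intro h
    exact hQ1i (h.trans (index_map_dvd Q1 hF))
  -- the automorphism
  obtain ⟨φ, hφ⟩ : ∃ φ : MulAut Y, φ = θ * MulAut.conj (F ⟨m0, hm0⟩) := ⟨_, rfl⟩
  have htc : ∀ x : S, t * c x * t⁻¹ = c (t x) := fun x => conj_conj t x
  have htx : ∀ x : S, t x = τ (m0 * x * m0⁻¹) := by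
    intro x
    rw [ht, MulAut.mul_apply]
    rfl
  have htM : ∀ x, t x ∈ M ↔ x ∈ M := by
    intro x
    rw [htx, hst]
    constructor
    · intro h
      have := mul_mem (mul_mem (inv_mem hm0) h) hm0
      rwa [show m0⁻¹ * (m0 * x * m0⁻¹) * m0 = x by group] at this
    · intro h
      exact mul_mem (mul_mem hm0 h) (inv_mem hm0)
  have hφF : ∀ m m' : M, (m' : S) = t m → F m' = φ (F m) := by
    intro m m' e
    rw [hφ, MulAut.mul_apply, MulAut.conj_apply, ← map_inv, ← map_mul, ← map_mul]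
    apply hθ
    rw [e, htx]
    rfl
  have hcR : ∀ x : S, c (t x) ∈ R ↔ c x ∈ R := by
    intro x
    rw [← htc]
    constructor
    · intro h
      have := mul_mem (mul_mem (inv_mem htR) h) htR
      rwa [show t⁻¹ * (t * c x * t⁻¹) * t = c x by group] at this
    · intro h
      exact mul_mem (mul_mem htR h) (inv_mem htR)
  have hφQ1 : ∀ y ∈ Q, φ y ∈ Q := by
    rw [hQ]
    rintro _ ⟨m, hm, rfl⟩
    rw [← hφF m ⟨t m, (htM m).2 m.2⟩ rfl]
    exact ⟨_, (hQ1mem _).2 ((hcR m).2 ((hQ1mem m).1 hm)), rfl⟩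
  have hφQ : ∀ y, φ y ∈ Q ↔ y ∈ Q := by
    have h1 : Q.map φ.toMonoidHom = Q := by
      apply eq_of_le_of_card_ge
      · rintro _ ⟨y, hy, rfl⟩
        exact hφQ1 y hy
      · rw [card_map_of_injective φ.injective]
    intro y
    constructor
    · intro h
      rw [← h1] at h
      obtain ⟨z, hz, e⟩ := h
      have : z = y := φ.injective e
      rwa [this] at hz
    · exact hφQ1 y
  obtain ⟨r, hr⟩ : ∃ r : ℕ, t ^ 2 ^ r = 1 := by
    obtain ⟨r, hr⟩ := hR2 ⟨t, htR⟩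
    exact ⟨r, congrArg Subtype.val hr⟩
  have hpow : ∀ n : ℕ, ∀ m m' : M, (m' : S) = (t ^ n) m → F m' = (φ ^ n) (F m) := by
    intro n
    induction n with
    | zero =>
      intro m m' e
      rw [pow_zero, MulAut.one_apply] at e ⊢
      rw [Subtype.ext e]
    | succ n ih =>
      intro m m' e
      rw [pow_succ', MulAut.mul_apply] at e ⊢
      have hmem : (t ^ n) m ∈ M := by
        rw [← htM, ← e]
        exact m'.2
      rw [← ih m ⟨_, hmem⟩ rfl]
      exact hφF _ _ e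
  have hφr : ∀ y ∈ Q, (φ ^ 2 ^ r) y = y := by
    intro y _
    obtain ⟨m, rfl⟩ := hF y
    rw [← hpow (2 ^ r) m m (by rw [hr, MulAut.one_apply])]
  obtain ⟨Ψ, hΨQ, hΨsq, hΨφ, hΨ4⟩ : ∃ Ψ : Subgroup Y, Ψ ≤ Q ∧ (∀ x ∈ Q, x ^ 2 ∈ Ψ) ∧ (∀ x ∈ Q, φ x * x⁻¹ ∈ Ψ) ∧
      4 ≤ Ψ.relIndex Q := by
    refine exists_Psi hQp hQi hφQ hφr ?_
    rcases hY with ⟨⟨b, rfl⟩, h⟩ | ⟨⟨b, hb⟩, h⟩
    · exact Or.inl ⟨⟨b * F ⟨m0, hm0⟩, by rw [hφ, map_mul]⟩, h (hQp.toSylow hQi)⟩
    · refine Or.inr ⟨?_, h (hQp.toSylow hQi)⟩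
      refine ⟨θ (F ⟨m0, hm0⟩) * b * F ⟨m0, hm0⟩, ?_⟩
      obtain ⟨y0, hy0⟩ : ∃ y0, y0 = F ⟨m0, hm0⟩ := ⟨_, rfl⟩
      rw [hφ, ← hy0, map_mul, map_mul, ← hb, ← conj_conj, pow_two, pow_two]
      group
  -- the subgroup `K`
  obtain ⟨K, hK⟩ : ∃ K : Subgroup (MulAut S), K = (((Ψ.comap F) ⊓ Q1).map M.subtype).map c := ⟨_, rfl⟩
  have hKmem : ∀ m : M, m ∈ Q1 → F m ∈ Ψ → c m ∈ K := by
    intro m h1 h2
    rw [hK]
    exact ⟨m, ⟨m, ⟨h2, h1⟩, rfl⟩, rfl⟩
  have hRN : ∀ x ∈ R ⊓ N, ∃ m : M, m ∈ Q1 ∧ c m = x := by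
    intro x hx
    have h1 : x ∈ L := hinf ⟨hRHM hx.1, hx.2⟩
    rw [hL] at h1
    obtain ⟨m, hm, rfl⟩ := h1
    exact ⟨⟨m, hm⟩, (hQ1mem _).2 hx.1, rfl⟩
  rw [hAE, hsup]
  refine ext_main' N hperf t htN R hR2 ?_ hodd htR K ?_ ?_ ?_ ?_
  · exact hRHM.trans (by rw [hHM, ← hsup]; exact sup_le_sup_right hLN _)
  · rw [hK]
    rintro _ ⟨_, ⟨m, hm, rfl⟩, rfl⟩
    exact ⟨(hQ1mem m).1 hm.2, hLN ((hcL _).2 m.2)⟩
  · intro x hx
    obtain ⟨m, hm, rfl⟩ := hRN x hx
    have h1 := hKmem (m ^ 2) (pow_mem hm 2) (by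
      rw [map_pow]
      exact hΨsq _ (by rw [hQ]; exact ⟨m, hm, rfl⟩))
    rw [coe_pow, map_pow] at h1
    exact h1
  · intro x hx
    obtain ⟨m, hm, rfl⟩ := hRN x hx
    have h0 : (⟨t m, (htM m).2 m.2⟩ : M) ∈ Q1 := (hQ1mem _).2 ((hcR m).2 ((hQ1mem m).1 hm))
    have h1 := hKmem (⟨t m, (htM m).2 m.2⟩ * m⁻¹) (mul_mem h0 (inv_mem hm)) (by
      rw [map_mul, map_inv, hφF m ⟨t m, (htM m).2 m.2⟩ rfl]
      exact hΨφ _ (by rw [hQ]; exact ⟨m, hm, rfl⟩))
    rw [htc, ← map_inv, ← map_mul]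
    exact h1
  · have h1 : R ⊓ N = (Q1.map M.subtype).map c := by
      ext x
      constructor
      · intro hx
        obtain ⟨m, hm, rfl⟩ := hRN x hx
        exact ⟨m, ⟨m, hm, rfl⟩, rfl⟩
      · rintro ⟨_, ⟨m, hm, rfl⟩, rfl⟩
        exact ⟨(hQ1mem m).1 hm, hLN ((hcL _).2 m.2)⟩
    rw [h1, hK, relIndex_map_map_of_injective _ _ hinj, relIndex_map_map_of_injective _ _ M.subtype_injective,
      inf_relIndex_right, relIndex_comap, ← hQ]
    exact hΨ4

/-! ### odd powers, inner factors -/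

theorem mem_of_pow_odd {A : Type u} [Group A] (X : Subgroup A) (a : A) {e k : ℕ} (he : ¬ 2 ∣ e) (h1 : a ^ e ∈ X)
    (h2 : a ^ 2 ^ k ∈ X) : a ∈ X := by
  have hcop : Nat.Coprime e (2 ^ k) := Nat.Coprime.pow_right k ((Nat.Prime.coprime_iff_not_dvd Nat.prime_two).2 he).symm
  have h5 : a = (a ^ e) ^ (Nat.gcdA e (2 ^ k)) * (a ^ 2 ^ k) ^ (Nat.gcdB e (2 ^ k)) := by
    rw [← zpow_natCast, ← zpow_natCast, ← zpow_mul, ← zpow_mul, ← zpow_add]
    have h6 := Nat.gcd_eq_gcd_ab e (2 ^ k)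
    rw [hcop] at h6
    rw [← h6]
    simp
  rw [h5]
  exact mul_mem (zpow_mem h1 _) (zpow_mem h2 _)

theorem isInn_iff {τ : MulAut S} : IsInn τ ↔ τ ∈ (MulAut.conj : S →* MulAut S).range := by
  constructor
  · rintro ⟨s, hs⟩
    exact ⟨s, by ext x; rw [hs, MulAut.conj_apply]⟩
  · rintro ⟨s, rfl⟩
    exact ⟨s, fun x => MulAut.conj_apply s x⟩

theorem twoPow_iff {τ : MulAut S} : TwoPow τ ↔ ∃ k, τ ^ 2 ^ k ∈ (MulAut.conj : S →* MulAut S).range := by
  constructor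
  · rintro ⟨k, s, hs⟩
    exact ⟨k, s, by ext x; rw [hs, MulAut.conj_apply]⟩
  · rintro ⟨k, s, hs⟩
    exact ⟨k, s, fun x => by rw [← hs, MulAut.conj_apply]⟩

theorem isInn_conj_mul {τ : MulAut S} {s : S} : IsInn (MulAut.conj s * τ) ↔ IsInn τ := by
  rw [isInn_iff, isInn_iff]
  exact Subgroup.mul_mem_cancel_left _ ⟨s, rfl⟩

theorem twoPow_conj_mul {τ : MulAut S} {s : S} (h : TwoPow τ) : TwoPow (MulAut.conj s * τ) := by
  rw [twoPow_iff] at h ⊢
  obtain ⟨k, hk⟩ := h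
  refine ⟨k, ?_⟩
  rw [← QuotientGroup.eq_one_iff] at hk ⊢
  have h1 : (QuotientGroup.mk (MulAut.conj s) : MulAut S ⧸ (MulAut.conj : S →* MulAut S).range) = 1 :=
    (QuotientGroup.eq_one_iff _).2 ⟨s, rfl⟩
  rw [QuotientGroup.mk_pow, QuotientGroup.mk_mul, h1, one_mul, ← QuotientGroup.mk_pow]
  exact hk

theorem autExt_conj_mul {τ : MulAut S} {s : S} : AutExt (MulAut.conj s * τ) = AutExt τ := by
  unfold AutExt
  apply le_antisymm
  · refine sup_le le_sup_left ?_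
    rw [zpowers_le]
    exact mul_mem (mem_sup_left ⟨s, rfl⟩) (mem_sup_right (mem_zpowers τ))
  · refine sup_le le_sup_left ?_
    rw [zpowers_le]
    have h1 : τ = (MulAut.conj s)⁻¹ * (MulAut.conj s * τ) := by group
    rw [h1]
    exact mul_mem (mem_sup_left (inv_mem ⟨s, rfl⟩)) (mem_sup_right (by rw [← h1]; exact mem_zpowers _))

/-- **general lemma** -/
theorem gen_main [Finite S] (hc : center S = ⊥) (hp : commutator S = ⊤) (τ : MulAut S) (h2 : TwoPow τ) (hni : ¬ IsInn τ)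
    (M : Subgroup S) (hM : ¬ 2 ∣ M.index) (hst : ∀ x, τ x ∈ M ↔ x ∈ M)
    {Y : Type v} [Group Y] (F : M →* Y) (hF : Function.Surjective F) (θ : MulAut Y)
    (hθ : ∀ m m' : M, (m' : S) = τ m → F m' = θ (F m))
    (hY : ((∃ b, θ = MulAut.conj b) ∧ ∀ Q : Sylow 2 Y, Rk 2 Q) ∨ ((∃ b, θ ^ 2 = MulAut.conj b) ∧ D3 Y)) :
    D3 (AutExt τ) := by
  have hYf : Finite Y := Finite.of_surjective F hF
  rw [twoPow_iff] at h2
  obtain ⟨k, s, hs⟩ := h2
  have hpst : ∀ n : ℕ, ∀ x, (τ ^ n) x ∈ M ↔ x ∈ M := by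
    intro n
    induction n with
    | zero => intro x; rw [pow_zero, MulAut.one_apply]
    | succ n ih => intro x; rw [pow_succ, MulAut.mul_apply, ih, hst]
  have hsn : s ∈ normalizer (M : Set S) := by
    rw [mem_normalizer_iff]
    intro x
    have h1 := hpst (2 ^ k) x
    rw [← hs, MulAut.conj_apply] at h1
    exact h1.symm
  obtain ⟨e, he⟩ : ∃ e, e = M.relIndex (normalizer (M : Set S)) := ⟨_, rfl⟩
  have hse : s ^ e ∈ M := by
    have h1 := (M.subgroupOf (normalizer (M : Set S))).pow_index_mem ⟨s, hsn⟩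
    rw [he]
    exact h1
  have heo : ¬ 2 ∣ e := by
    rw [he]
    exact fun h => hM (h.trans (relIndex_dvd_index_of_le le_normalizer))
  have hpF : ∀ n : ℕ, ∀ m m' : M, (m' : S) = (τ ^ n) m → F m' = (θ ^ n) (F m) := by
    intro n
    induction n with
    | zero =>
      intro m m' h
      rw [pow_zero, MulAut.one_apply] at h ⊢
      rw [Subtype.ext h]
    | succ n ih =>
      intro m m' h
      rw [pow_succ', MulAut.mul_apply] at h ⊢
      have hmem : (τ ^ n) m ∈ M := (hpst n m).2 m.2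
      rw [← ih m ⟨_, hmem⟩ rfl]
      exact hθ _ _ h
  have hk1 : (τ ^ e) ^ 2 ^ k = MulAut.conj (s ^ e) := by
    rw [← pow_mul, mul_comm, pow_mul, ← hs, map_pow]
  have hτk : τ ^ 2 ^ k ∈ (MulAut.conj : S →* MulAut S).range := ⟨s, hs⟩
  have hni' : ¬ IsInn (τ ^ e) := by
    intro h
    apply hni
    rw [isInn_iff] at h ⊢
    exact mem_of_pow_odd _ τ heo h hτk
  have hAE : AutExt (τ ^ e) = AutExt τ := by
    unfold AutExt
    apply le_antisymm
    · refine sup_le le_sup_left ?_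
      rw [zpowers_le]
      exact mem_sup_right (pow_mem (mem_zpowers τ) e)
    · refine sup_le le_sup_left ?_
      rw [zpowers_le]
      exact mem_of_pow_odd _ τ heo (mem_sup_right (mem_zpowers _)) (mem_sup_left hτk)
  rw [← hAE]
  refine gen_core hc hp (τ ^ e) hni' M hM (hpst e) hse hk1 F hF (θ ^ e) (hpF e) ?_
  rcases hY with ⟨⟨b, rfl⟩, h⟩ | ⟨⟨b, hb⟩, h⟩
  · exact Or.inl ⟨⟨b ^ e, by rw [map_pow]⟩, h⟩
  · exact Or.inr ⟨⟨b ^ e, by rw [← pow_mul, mul_comm, pow_mul, hb, map_pow]⟩, h⟩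

/-- `gen_main` for `conj s * τ` -/
theorem gen_main_conj [Finite S] (hc : center S = ⊥) (hp : commutator S = ⊤) (τ : MulAut S) (h2 : TwoPow τ)
    (hni : ¬ IsInn τ) (s : S) (M : Subgroup S) (hM : ¬ 2 ∣ M.index) (hst : ∀ x ∈ M, (MulAut.conj s * τ) x ∈ M)
    {Y : Type v} [Group Y] (F : M →* Y) (hF : Function.Surjective F) (θ : MulAut Y)
    (hθ : ∀ m m' : M, (m' : S) = (MulAut.conj s * τ) m → F m' = θ (F m))
    (hY : ((∃ b, θ = MulAut.conj b) ∧ ∀ Q : Sylow 2 Y, Rk 2 Q) ∨ ((∃ b, θ ^ 2 = MulAut.conj b) ∧ D3 Y)) :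
    D3 (AutExt τ) := by
  rw [← autExt_conj_mul (s := s)]
  refine gen_main hc hp _ (twoPow_conj_mul h2) (fun h => hni (isInn_conj_mul.1 h)) M hM ?_ F hF θ hθ hY
  have h1 : M.map (MulAut.conj s * τ).toMonoidHom = M := by
    apply eq_of_le_of_card_ge
    · rintro _ ⟨y, hy, rfl⟩
      exact hst y hy
    · rw [card_map_of_injective (MulAut.conj s * τ).injective]
  intro y
  constructor
  · intro h
    rw [← h1] at h
    obtain ⟨z, hz, e⟩ := h
    have : z = y := (MulAut.conj s * τ).injective e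
    rwa [this] at hz
  · exact hst y

/-- `θ` inner, the Sylow 2-subgroups of `Y` not cyclic -/
theorem gen_inner [Finite S] (hc : center S = ⊥) (hp : commutator S = ⊤) (τ : MulAut S) (h2 : TwoPow τ)
    (hni : ¬ IsInn τ) (s : S) (M : Subgroup S) (hM : ¬ 2 ∣ M.index) (hst : ∀ x ∈ M, (MulAut.conj s * τ) x ∈ M)
    {Y : Type v} [Group Y] (F : M →* Y) (hF : Function.Surjective F) (y : Y)
    (hθ : ∀ m m' : M, (m' : S) = (MulAut.conj s * τ) m → F m' = y * F m * y⁻¹)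
    (hY : ∀ Q : Sylow 2 Y, Rk 2 Q) : D3 (AutExt τ) :=
  gen_main_conj hc hp τ h2 hni s M hM hst F hF (MulAut.conj y) hθ (Or.inl ⟨⟨y, rfl⟩, hY⟩)

theorem center_of_simple [IsSimpleGroup S] (hna : ¬ ∀ a b : S, a * b = b * a) : center S = ⊥ := by
  rcases (inferInstance : (center S).Normal).eq_bot_or_eq_top with h | h
  · exact h
  · exfalso
    apply hna
    intro a b
    have : b ∈ center S := by rw [h]; exact mem_top b
    exact mem_center_iff.1 this a

theorem commutator_of_simple [IsSimpleGroup S] (hna : ¬ ∀ a b : S, a * b = b * a) : commutator S = ⊤ := by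
  rcases (inferInstance : (commutator S).Normal).eq_bot_or_eq_top with h | h
  · exfalso
    apply hna
    intro a b
    have h1 : ⁅a, b⁆ ∈ commutator S := commutator_mem_commutator (mem_top a) (mem_top b)
    rw [h, mem_bot, commutatorElement_eq_one_iff_mul_comm] at h1
    exact h1
  · exact h

end Cfsg.Agent.H951.K547
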