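import Cfsg.Agent.H951.K547.Gen
import Cfsg.Agent.H5.K547.Base
import Cfsg.Agent.H491.Sd.FrOdd
import Cfsg.Agent.H69.OutCount

/-!
# S4547: outer 2-automorphisms of groups with a frame of commuting rank one groups (helper951)

* `rk2_of_involutions` : a 2-group of order at least four generated by involutions is not cyclic;
* `PM.rp` : automorphisms in `PM` act trivially on `N / T`;
* `exists_MF_hom` : the homomorphism `MF R β P → P`;
* `ExtD3 S` : `D3 (AutExt τ)` for all outer 2-automorphisms; `extD3_congr`;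
* `extD3_of_frame` : the row.
-/

set_option autoImplicit false
set_option linter.unusedSectionVars false

namespace Cfsg.Agent.H951.K547

open Cfsg.Agent.H821.K547

universe u v

/-! ### `ExtD3` -/

/-- the rows of all outer 2-automorphisms -/
def ExtD3 (S : Type u) [Group S] : Prop := ∀ τ : MulAut S, TwoPow τ → ¬ IsInn τ → D3 (AutExt τ)

theorem extD3_congr {S : Type u} {Y : Type v} [Group S] [Group Y] [Finite S] (e : S ≃* Y) (h : ExtD3 Y) : ExtD3 S := by
  intro τ h2 hni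
  have hfY : Finite Y := Finite.of_equiv S e.toEquiv
  let f : MulAut S ≃* MulAut Y := MulAut.congr e
  have hf : ∀ (σ : MulAut S) (y : Y), f σ y = e (σ (e.symm y)) := fun σ y => rfl
  have hpow : ∀ (σ : MulAut S) (n : ℕ), (f σ) ^ n = f (σ ^ n) := fun σ n => (map_pow f σ n).symm
  have h1 : TwoPow (f τ) := by
    obtain ⟨k, s, hs⟩ := h2
    refine ⟨k, e s, fun y => ?_⟩
    rw [hpow, hf, hs, map_mul, map_mul, map_inv, MulEquiv.apply_symm_apply]
  have h3 : ¬ IsInn (f τ) := by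
    rintro ⟨y, hy⟩
    apply hni
    refine ⟨e.symm y, fun x => ?_⟩
    have h4 := hy (e x)
    rw [hf, MulEquiv.symm_apply_apply] at h4
    apply e.injective
    rw [h4, map_mul, map_mul, map_inv, MulEquiv.apply_symm_apply]
  have h4 := h (f τ) h1 h3
  have h5 : AutExt (f τ) = (AutExt τ).map f.toMonoidHom := by
    unfold AutExt
    rw [Subgroup.map_sup, MonoidHom.map_zpowers]
    congr 1
    ext x
    constructor
    · rintro ⟨y, rfl⟩
      refine ⟨MulAut.conj (e.symm y), ⟨_, rfl⟩, ?_⟩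
      ext z
      show e (e.symm y * e.symm z * (e.symm y)⁻¹) = y * z * y⁻¹
      rw [map_mul, map_mul, map_inv, MulEquiv.apply_symm_apply, MulEquiv.apply_symm_apply]
    · rintro ⟨_, ⟨y, rfl⟩, rfl⟩
      refine ⟨e y, ?_⟩
      ext z
      show e y * z * (e y)⁻¹ = e (y * e.symm z * y⁻¹)
      rw [map_mul, map_mul, map_inv, MulEquiv.apply_symm_apply]
  rw [h5] at h4
  exact Cfsg.Agent.H5.K547.d3_congr ((AutExt τ).equivMapOfInjective f.toMonoidHom f.injective) h4

/-! ### 2-groups generated by involutions -/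

theorem rk2_of_involutions {P : Type u} [Group P] [Finite P] (hP : IsPGroup 2 P) (h4 : 4 ≤ Nat.card P) {Γ : Set P}
    (hΓ : Subgroup.closure Γ = ⊤) (h2 : ∀ g ∈ Γ, g ^ 2 = 1) : Rk 2 P := by
  classical
  obtain ⟨m, hm⟩ := hP.exists_card_eq
  have hm2 : 2 ≤ m := by
    by_contra hcon
    have h5 : 2 ^ m ≤ 2 ^ 1 := Nat.pow_le_pow_right (by norm_num) (by omega)
    rw [hm] at h4
    omega
  by_contra hrk
  -- all squares lie in `N`, the index of `N` is at most 2
  let N : Subgroup P := Sq (⊤ : Subgroup P)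
  have hN : ∀ x : P, x ^ 2 ∈ N := fun x => sq_mem_Sq (Subgroup.mem_top x)
  have hi : ¬ 2 ^ 2 ≤ N.index := fun h => hrk (rk_of_sq hN h)
  have hsub : ∀ K : Subgroup P, Nat.card K = 2 ^ (m - 1) → K = N := by
    intro K hK
    have hKi : K.index = 2 := by
      have h5 := K.card_mul_index
      rw [hK, hm] at h5
      have h6 : 2 ^ m = 2 ^ (m - 1) * 2 := by rw [← pow_succ, show m - 1 + 1 = m by omega]
      rw [h6] at h5
      exact Nat.eq_of_mul_eq_mul_left (pow_pos (by norm_num) _) h5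
    have hNK : N ≤ K := by
      show Sq (⊤ : Subgroup P) ≤ K
      rw [Sq_le_iff]
      intro x _
      exact Subgroup.sq_mem_of_index_two hKi x
    have h7 := Subgroup.relIndex_mul_index hNK
    rw [hKi] at h7
    have h8 : N.relIndex K = 1 := by
      have h9 : N.relIndex K ≠ 0 := Subgroup.FiniteIndex.index_ne_zero
      omega
    exact le_antisymm (Subgroup.relIndex_eq_one.1 h8) hNK
  have hgen : ∀ g ∈ Γ, g ∈ N := by
    intro g hg
    obtain ⟨j, hj⟩ := (hP.to_subgroup (Subgroup.zpowers g)).exists_card_eq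
    have hj1 : j ≤ m - 1 := by
      by_contra hcon
      have h5 : Nat.card (Subgroup.zpowers g) ≤ 2 := by
        rw [Nat.card_zpowers]
        exact orderOf_le_of_pow_eq_one (by norm_num) (h2 g hg)
      have h6 : 2 ^ 2 ≤ 2 ^ j := Nat.pow_le_pow_right (by norm_num) (by omega)
      rw [← hj] at h6
      omega
    have : Fact (Nat.Prime 2) := ⟨Nat.prime_two⟩
    obtain ⟨K, hK, hgK⟩ := Sylow.exists_subgroup_card_pow_prime_le 2
      (show 2 ^ (m - 1) ∣ Nat.card P by rw [hm]; exact pow_dvd_pow 2 (by omega)) (Subgroup.zpowers g) hj hj1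
    rw [← hsub K hK]
    exact hgK (Subgroup.mem_zpowers g)
  have htop : N = ⊤ := by
    rw [eq_top_iff, ← hΓ, Subgroup.closure_le]
    exact hgen
  have : Fact (Nat.Prime 2) := ⟨Nat.prime_two⟩
  obtain ⟨K, hK⟩ := Sylow.exists_subgroup_card_pow_prime 2
      (show 2 ^ (m - 1) ∣ Nat.card P by rw [hm]; exact pow_dvd_pow 2 (by omega))
  have hKN := hsub K hK
  rw [htop] at hKN
  rw [hKN, Subgroup.card_top, hm] at hK
  have h6 : 2 ^ m = 2 ^ (m - 1) * 2 := by rw [← pow_succ, show m - 1 + 1 = m by omega]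
  have h7 : 0 < 2 ^ (m - 1) := pow_pos (by norm_num) _
  omega

theorem sylow_rk2_of_involutions {P : Type u} [Group P] [Finite P] (hP : IsPGroup 2 P) (h4 : 4 ≤ Nat.card P) {Γ : Set P}
    (hΓ : Subgroup.closure Γ = ⊤) (h2 : ∀ g ∈ Γ, g ^ 2 = 1) (Q : Sylow 2 P) : Rk 2 Q := by
  have h : (Q : Subgroup P) = ⊤ :=
    Q.is_maximal' (Q := ⊤) (hP.of_injective (Subgroup.subtype _) (Subgroup.subtype_injective _)) le_top |>.symm
  obtain ⟨f, hf⟩ := rk2_of_involutions hP h4 hΓ h2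
  refine ⟨f.comp (Q : Subgroup P).subtype, fun x => ?_⟩
  obtain ⟨y, rfl⟩ := hf x
  refine ⟨⟨y, ?_⟩, rfl⟩
  show y ∈ (Q : Subgroup P)
  rw [h]
  exact Subgroup.mem_top y

/-! ### frames -/

section frame

open CoxeterSystem Cfsg.Agent.ChevalleyStructure.CoxeterGeom Cfsg.Agent.Tits.Roots Cfsg.Agent.Tits.Core
  Cfsg.Agent.Nodes.Reps Cfsg.Agent.Nodes.BNOf Cfsg.Agent.Nodes.Bruhat Cfsg.Agent.Nodes.OppDec
  Cfsg.Agent.KFacts.RgdAut Cfsg.Agent.KFacts.RgdDiag Cfsg.Agent.Nodes.FreeTorus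
  Cfsg.Agent.ClosedExc Cfsg.Agent.ClosedExc.Rk Cfsg.Agent.ClosedExc.Prod Cfsg.Agent.ClosedExc.Frame
  Cfsg.Agent.H55.Sd Cfsg.Agent.H491.Sd

variable {I W Y : Type*} [Fintype I] [DecidableEq I] [Group W] [Group Y] {M : CoxeterMatrix I}
  {cs : CoxeterSystem M W} {C : I → I → ℤ} {h : IsCartan M C} {p : ℕ} {T : Subgroup Y} {n : I → Y}
  {X : (I → ℤ) → Subgroup Y} {ι : Type*}
variable (R : RGD cs h p T n X)

include R

/-- automorphisms in `PM` act trivially on `N / T` -/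
theorem PM.rp [Finite W] (hG : GG cs h T X = ⊤) (hno : NoFix cs h T X) {δ : MulAut Y} (hδ : PM cs h T X δ) {w : W} {g : Y}
    (hg : Rp cs R.nsys w g) : Rp cs R.nsys w (δ g) := by
  have hn : δ g ∈ Subgroup.normalizer (T : Set Y) := by
    rw [Subgroup.mem_normalizer_iff]
    intro t
    have h1 := Subgroup.mem_normalizer_iff.1 hg.mem_normalizer (δ⁻¹ t)
    have h2 : δ (g * δ⁻¹ t * g⁻¹) = δ g * t * (δ g)⁻¹ := by
      rw [map_mul, map_mul, map_inv, MulAut.apply_inv_self]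
    rw [← h2, hδ.tor, ← h1]
    exact (hδ.tor.inv t).symm
  obtain ⟨w', hw'⟩ := exists_rp_of_norm R hG hno hn
  suffices hww : w' = w by rwa [hww] at hw'
  have h3 : ∀ x, IsRoot cs h x → rep cs h w' x = rep cs h w x := by
    intro x hx
    rcases hδ.root with h1 | h1
    · apply X_injective R (hx.act _) (hx.act _)
      rw [← R.conj_rp hw' hx, ← map_eq_of_iff (h1 _ (hx.act w)), ← R.conj_rp hg hx, map_cj,
        map_eq_of_iff (h1 x hx)]
    · have h4 : rep cs h w' (-x) = -rep cs h w x := by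
        apply X_injective R (hx.neg.act _) (hx.act _).neg
        rw [← R.conj_rp hw' hx.neg, ← map_eq_of_iff (h1 _ (hx.act w)), ← R.conj_rp hg hx, map_cj,
          map_eq_of_iff (h1 x hx)]
      rw [map_neg, neg_inj] at h4
      exact h4
  have h5 : w⁻¹ * w' = 1 := by
    refine eq_one_of_fix cs h _ fun i => ?_
    show rep cs h (w⁻¹ * w') (sr i) = sr i
    rw [rep_mul_apply, h3 _ (isRoot_sr cs h i), rep_inv_apply]
  exact (inv_mul_eq_one.1 h5).symm

variable [Fintype ι] [Finite W] [Finite Y] {β : ι → (I → ℤ)} {P : Subgroup W}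

/-- **The homomorphism of the frame group onto the group of permutations.** -/
theorem exists_MF_hom (F : FrameData cs h X β P) (hSL : ∀ i, IsSL (LL X (sr i))) :
    ∃ f : ↥(MF R β P) →* ↥P, Function.Surjective f ∧ ∀ (m : ↥(MF R β P)) (y g : Y) (w : P),
      y ∈ (⨆ a, LL X (β a) : Subgroup Y) → Rp cs R.nsys (w : W) g → (m : Y) = y * g → f m = w := by
  classical
  have hSL' : ∀ x, IsRoot cs h x → IsSL (LL X x) := fun x hx => isSL_of_root R hSL hx
  have hn := NP_le_normalizer R F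
  have hex : ∀ m : ↥(MF R β P), ∃ (w : P) (y g : Y), y ∈ (⨆ a, LL X (β a) : Subgroup Y) ∧ Rp cs R.nsys (w : W) g ∧
      (m : Y) = y * g := by
    intro m
    have hm : (m : Y) ∈ (⨆ a, LL X (β a) : Subgroup Y) ⊔ NP R P := m.2
    rw [← SetLike.mem_coe, Subgroup.coe_mul_of_right_le_normalizer_left _ _ hn, Set.mem_mul] at hm
    obtain ⟨y, hy, g, ⟨w, hw, hg⟩, e⟩ := hm
    exact ⟨⟨w, hw⟩, y, g, hy, hg, e.symm⟩
  have huniq : ∀ (w w' : P) (y g y' g' : Y), y ∈ (⨆ a, LL X (β a) : Subgroup Y) → y' ∈ (⨆ a, LL X (β a) : Subgroup Y) →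
      Rp cs R.nsys (w : W) g → Rp cs R.nsys (w' : W) g' → y * g = y' * g' → w = w' := by
    intro w w' y g y' g' hy hy' hg hg' e
    have h1 : g' * g⁻¹ = y'⁻¹ * y := by
      have h2 : g' = y'⁻¹ * (y * g) := by rw [e]; group
      rw [h2]; group
    have h2 : g' * g⁻¹ ∈ (⨆ a, LL X (β a) : Subgroup Y) := by
      rw [h1]
      exact mul_mem (inv_mem hy') hy
    have h3 : Rp cs R.nsys ((w' : W) * (w : W)⁻¹) (g' * g⁻¹) := hg'.mul hg.inv
    have h4 : g' * g⁻¹ ∈ T := by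
      refine frame_kernel R F hSL' (mul_mem w'.2 (inv_mem w.2)) h3 (one_mem _) fun a => ?_
      rw [one_mul]
      exact frame_cj_E F h2 a
    have h5 := rp_eq R h3 (rp_of_mem h4)
    exact Subtype.ext (mul_inv_eq_one.1 h5).symm
  choose fw fy fg hfy hfg hfm using hex
  have hsp : ∀ (m : ↥(MF R β P)) (y g : Y) (w : P),
      y ∈ (⨆ a, LL X (β a) : Subgroup Y) → Rp cs R.nsys (w : W) g → (m : Y) = y * g → fw m = w := by
    intro m y g w hy hg e
    exact huniq _ _ _ _ _ _ (hfy m) hy (hfg m) hg ((hfm m).symm.trans e)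
  refine ⟨{ toFun := fw, map_one' := ?_, map_mul' := ?_ }, ?_, hsp⟩
  · exact hsp 1 1 1 1 (one_mem _) rp_one (by rw [one_mul]; rfl)
  · intro a b
    refine hsp (a * b) (fy a * (fg a * fy b * (fg a)⁻¹)) (fg a * fg b) (fw a * fw b) ?_ ((hfg a).mul (hfg b)) ?_
    · refine mul_mem (hfy a) ?_
      have h6 : fg a ∈ Subgroup.normalizer ((⨆ a, LL X (β a) : Subgroup Y) : Set Y) := hn ⟨_, (fw a).2, hfg a⟩
      exact (Subgroup.mem_normalizer_iff.1 h6 _).1 (hfy b)
    · rw [Subgroup.coe_mul, hfm a, hfm b]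
      group
  · intro w
    obtain ⟨g, hg⟩ := exists_rp cs R.nsys (w : W)
    exact ⟨⟨g, Subgroup.mem_sup_right ⟨w, w.2, hg⟩⟩, hsp _ 1 g w (one_mem _) hg (by rw [one_mul])⟩

/-- **The row of a group with a frame.** -/
theorem extD3_of_frame (hc : Subgroup.center Y = ⊥) (hp : commutator Y = ⊤) (hG : GG cs h T X = ⊤)
    (hno : NoFix cs h T X) (F : FrameData cs h X β P) (hSL : ∀ i, IsSL (LL X (sr i))) (hodd : Odd (MF R β P).index)
    (hP : ∀ Q : Sylow 2 P, Rk 2 Q) (hpm : ∀ τ : MulAut Y, ∃ s : Y, PM cs h T X (MulAut.conj s * τ)) : ExtD3 Y := by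
  intro τ h2 hni
  obtain ⟨s, hs⟩ := hpm τ
  obtain ⟨f, hf, hfm⟩ := exists_MF_hom R F hSL
  have hn := NP_le_normalizer R F
  have hE : (⨆ a, LL X (β a) : Subgroup Y).map (MulAut.conj s * τ).toMonoidHom = ⨆ a, LL X (β a) := by
    rw [Subgroup.map_iSup]
    exact iSup_congr fun a => hs.map_LL (F.root a)
  have hM := hs.map_MF R hG hno F.root P
  refine gen_inner hc hp τ h2 hni s (MF R β P) ?_ ?_ f hf 1 ?_ hP
  · rw [← even_iff_two_dvd, Nat.not_even_iff_odd]
    exact hodd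
  · intro x hx
    have h1 : (MulAut.conj s * τ) x ∈ (MF R β P).map (MulAut.conj s * τ).toMonoidHom := ⟨x, hx, rfl⟩
    rwa [hM] at h1
  · intro m m' e
    rw [inv_one, mul_one, one_mul]
    have hm : (m : Y) ∈ (⨆ a, LL X (β a) : Subgroup Y) ⊔ NP R P := m.2
    rw [← SetLike.mem_coe, Subgroup.coe_mul_of_right_le_normalizer_left _ _ hn, Set.mem_mul] at hm
    obtain ⟨y, hy, g, ⟨w, hw, hg⟩, e'⟩ := hm
    rw [hfm m y g ⟨w, hw⟩ hy hg e'.symm]
    refine hfm m' ((MulAut.conj s * τ) y) ((MulAut.conj s * τ) g) ⟨w, hw⟩ ?_ (PM.rp R hG hno hs hg) ?_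
    · rw [← hE]
      exact ⟨y, hy, rfl⟩
    · rw [e, ← e', map_mul]

end frame

end Cfsg.Agent.H951.K547
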