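import Cfsg.Agent.H951.K547.Tr

/-!
# S4547: an automorphism acting on `Q / Φ(Q)`, `Q` a Sylow 2-subgroup (helper951)

`exists_Psi` : `φ` stabilises `Q`, `φ ^ 2 ^ r = 1` on `Q`, and either `φ` is inner and `Rk 2 Q` or `φ ^ 2` is inner and
`Rk 3 Q`. Then there is `Ψ ≤ Q` containing the squares and `[φ, Q]` with `|Q : Ψ| ≥ 4`.
-/

set_option autoImplicit false

namespace Cfsg.Agent.H951.K547

open Cfsg.Agent.H821.K547 Subgroup

universe u

variable {Y : Type u} [Group Y]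

/-- the automorphisms acting trivially on `Q / Sq Q` -/
def CC (Q : Subgroup Y) : Subgroup (MulAut Y) where
  carrier := {φ | (∀ x, φ x ∈ Q ↔ x ∈ Q) ∧ ∀ x ∈ Q, φ x * x⁻¹ ∈ Sq Q}
  mul_mem' := by
    rintro φ ψ ⟨h1, h2⟩ ⟨h3, h4⟩
    refine ⟨fun x => ?_, fun x hx => ?_⟩
    · rw [MulAut.mul_apply, h1, h3]
    · rw [MulAut.mul_apply]
      have e : φ (ψ x) * x⁻¹ = (φ (ψ x) * (ψ x)⁻¹) * (ψ x * x⁻¹) := by group
      rw [e]
      exact mul_mem (h2 _ ((h3 x).2 hx)) (h4 x hx)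
  one_mem' := ⟨fun x => Iff.rfl, fun x _ => by rw [MulAut.one_apply, mul_inv_cancel]; exact one_mem _⟩
  inv_mem' := by
    rintro φ ⟨h1, h2⟩
    refine ⟨fun x => ?_, fun x hx => ?_⟩
    · rw [← h1, MulAut.apply_inv_self]
    · have h3 : φ⁻¹ x ∈ Q := by rw [← h1, MulAut.apply_inv_self]; exact hx
      have h4 := inv_mem (h2 _ h3)
      rwa [MulAut.apply_inv_self, mul_inv_rev, inv_inv] at h4

theorem mem_CC {Q : Subgroup Y} {φ : MulAut Y} :
    φ ∈ CC Q ↔ (∀ x, φ x ∈ Q ↔ x ∈ Q) ∧ ∀ x ∈ Q, φ x * x⁻¹ ∈ Sq Q := Iff.rfl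

theorem conj_mem_CC {Q : Subgroup Y} {b : Y} (hb : b ∈ Q) : MulAut.conj b ∈ CC Q := by
  refine ⟨fun x => ?_, fun x hx => ?_⟩
  · rw [MulAut.conj_apply]
    constructor
    · intro h
      have e : x = b⁻¹ * (b * x * b⁻¹) * b := by group
      rw [e]
      exact mul_mem (mul_mem (inv_mem hb) h) hb
    · intro h
      exact mul_mem (mul_mem hb h) (inv_mem hb)
  · rw [MulAut.conj_apply]
    exact comm_mem_Sq hb hx

theorem mem_CC_of_inner [Finite Y] {Q : Subgroup Y} (hQ : ¬ 2 ∣ Q.index) {b : Y}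
    (hφ : ∀ x, MulAut.conj b x ∈ Q ↔ x ∈ Q) {r : ℕ} (hr : (MulAut.conj b) ^ 2 ^ r ∈ CC Q) :
    MulAut.conj b ∈ CC Q := by
  have hb : b ∈ normalizer (Q : Set Y) := by
    rw [mem_normalizer_iff]
    intro x
    have := hφ x
    rw [MulAut.conj_apply] at this
    exact this.symm
  have h1 : b ^ Q.relIndex (normalizer (Q : Set Y)) ∈ Q := by
    have h2 := (Q.subgroupOf (normalizer (Q : Set Y))).pow_index_mem ⟨b, hb⟩
    exact h2
  have h3 : ¬ 2 ∣ Q.relIndex (normalizer (Q : Set Y)) := fun h =>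
    hQ (h.trans (relIndex_dvd_index_of_le le_normalizer))
  obtain ⟨e, he⟩ : ∃ e, e = Q.relIndex (normalizer (Q : Set Y)) := ⟨_, rfl⟩
  rw [← he] at h1 h3
  have h4 : (MulAut.conj b) ^ e ∈ CC Q := by
    rw [← map_pow]
    exact conj_mem_CC h1
  have hcop : Nat.Coprime e (2 ^ r) := Nat.Coprime.pow_right r ((Nat.Prime.coprime_iff_not_dvd Nat.prime_two).2 h3).symm
  have h5 : (MulAut.conj b : MulAut Y) = ((MulAut.conj b) ^ e) ^ (Nat.gcdA e (2 ^ r)) *
      ((MulAut.conj b) ^ 2 ^ r) ^ (Nat.gcdB e (2 ^ r)) := by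
    rw [← zpow_natCast, ← zpow_natCast, ← zpow_mul, ← zpow_mul, ← zpow_add]
    have h6 := Nat.gcd_eq_gcd_ab e (2 ^ r)
    rw [hcop] at h6
    rw [← h6]
    simp
  rw [h5]
  exact mul_mem (zpow_mem h4 _) (zpow_mem hr _)

theorem exists_Psi [Finite Y] {Q : Subgroup Y} (hQ2 : IsPGroup 2 Q) (hQ : ¬ 2 ∣ Q.index) {φ : MulAut Y}
    (hφ : ∀ x, φ x ∈ Q ↔ x ∈ Q) {r : ℕ} (hr : ∀ x ∈ Q, (φ ^ 2 ^ r) x = x)
    (h : ((∃ b : Y, φ = MulAut.conj b) ∧ Rk 2 Q) ∨ ((∃ b : Y, φ ^ 2 = MulAut.conj b) ∧ Rk 3 Q)) :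
    ∃ Ψ : Subgroup Y, Ψ ≤ Q ∧ (∀ x ∈ Q, x ^ 2 ∈ Ψ) ∧ (∀ x ∈ Q, φ x * x⁻¹ ∈ Ψ) ∧ 4 ≤ Ψ.relIndex Q := by
  classical
  have hst : ∀ n : ℕ, ∀ x, (φ ^ n) x ∈ Q ↔ x ∈ Q := by
    intro n
    induction n with
    | zero => intro x; rw [pow_zero, MulAut.one_apply]
    | succ n ih => intro x; rw [pow_succ, MulAut.mul_apply, ih, hφ]
  have hrC : φ ^ 2 ^ r ∈ CC Q := by
    refine ⟨hst _, fun x hx => ?_⟩
    rw [hr x hx, mul_inv_cancel]
    exact one_mem _
  rcases h with ⟨⟨b, rfl⟩, hrk⟩ | ⟨⟨b, hb⟩, hrk⟩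
  · exact ⟨Sq Q, Sq_le Q, fun x hx => sq_mem_Sq hx, (mem_CC_of_inner hQ hφ hrC).2, index_of_rk hrk⟩
  · have h2 : φ ^ 2 ∈ CC Q := by
      rw [hb]
      refine mem_CC_of_inner (r := r) hQ (fun x => ?_) ?_
      · rw [← hb]; exact hst 2 x
      · rw [← hb, ← pow_mul, mul_comm, pow_mul]
        exact pow_mem hrC 2
    have hn : ((Sq Q).subgroupOf Q).Normal := normal_of_sq fun x => sq_mem_Sq x.2
    let V := ↥Q ⧸ (Sq Q).subgroupOf Q
    have hV2 : ∀ v : V, v ^ 2 = 1 := by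
      intro v
      induction v using QuotientGroup.induction_on with
      | H x =>
        rw [← QuotientGroup.mk_pow]
        exact (QuotientGroup.eq_one_iff _).2 (sq_mem_Sq x.2)
    have hVc : ∀ a b : V, a * b = b * a := by
      intro a b
      have h1 := hV2 (a * b)
      have ha : a⁻¹ = a := inv_eq_of_mul_eq_one_left (by rw [← pow_two]; exact hV2 a)
      have hb : b⁻¹ = b := inv_eq_of_mul_eq_one_left (by rw [← pow_two]; exact hV2 b)
      have h2 : (a * b)⁻¹ = a * b := inv_eq_of_mul_eq_one_left (by rw [← pow_two]; exact h1)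
      rw [← h2, mul_inv_rev, ha, hb]
    letI : CommGroup V := { (inferInstance : Group V) with mul_comm := hVc }
    let π : ↥Q →* V := QuotientGroup.mk' _
    have hπs : Function.Surjective π := QuotientGroup.mk'_surjective _
    have hπ1 : ∀ x : Q, π x = 1 ↔ (x : Y) ∈ Sq Q := fun x => (QuotientGroup.eq_one_iff x).trans mem_subgroupOf
    let f : ↥Q →* ↥Q :=
      { toFun := fun x => ⟨φ x, (hφ x).2 x.2⟩
        map_one' := Subtype.ext (map_one φ)
        map_mul' := fun a b => Subtype.ext (map_mul φ (a : Y) b) }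
    let δ : ↥Q →* V :=
      { toFun := fun x => π (f x) * (π x)⁻¹
        map_one' := by simp
        map_mul' := fun a b => by
          rw [map_mul, map_mul, map_mul, mul_inv]
          exact mul_mul_mul_comm _ _ _ _ }
    have hδ : ∀ x, δ x = π (f x) * (π x)⁻¹ := fun x => rfl
    have hδ2 : ∀ x, δ x ^ 2 = 1 := fun x => hV2 _
    -- `δ` is trivial on `Sq Q`
    have hδS : ∀ x : Q, (x : Y) ∈ Sq Q → δ x = 1 := by
      intro x hx
      rw [hδ, (hπ1 x).2 hx, inv_one, mul_one, hπ1]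
      exact Sq_map hφ _ hx
    have hff : ∀ x, π (f (f x)) = π x := by
      intro x
      rw [← mul_inv_eq_one, ← map_inv, ← map_mul, hπ1]
      have := h2.2 x x.2
      rw [pow_two, MulAut.mul_apply] at this
      exact this
    have hle : (δ.range.comap π) ≤ δ.ker := by
      intro x hx
      obtain ⟨y, hy⟩ := hx
      rw [MonoidHom.mem_ker]
      have h3 : δ (x * (f y * y⁻¹)⁻¹) = 1 := by
        apply hδS
        rw [← hπ1, map_mul, map_inv, map_mul, map_inv, ← hδ, hy]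
        exact mul_inv_cancel _
      have h4 : δ (f y * y⁻¹) = 1 := by
        rw [hδ, map_mul, map_mul, map_mul, map_inv, map_inv, map_inv, hff]
        have h5 : π y * (π (f y))⁻¹ * (π (f y) * (π y)⁻¹)⁻¹ = (π y * (π (f y))⁻¹) ^ 2 := by
          rw [mul_inv_rev, inv_inv, pow_two]
        rw [h5, hV2]
      rw [map_mul, map_inv, h4, inv_one, mul_one] at h3
      exact h3
    -- the subgroup
    refine ⟨(δ.range.comap π).map Q.subtype, ?_, fun x hx => ?_, fun x hx => ?_, ?_⟩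
    · rintro _ ⟨x, -, rfl⟩
      exact x.2
    · refine ⟨⟨x, hx⟩ ^ 2, ?_, rfl⟩
      show π (⟨x, hx⟩ ^ 2) ∈ δ.range
      rw [map_pow, hV2]
      exact one_mem _
    · exact ⟨f ⟨x, hx⟩ * (⟨x, hx⟩ : Q)⁻¹, ⟨⟨x, hx⟩, by rw [hδ, map_mul, map_inv]⟩, rfl⟩
    · have e1 : ((δ.range.comap π).map Q.subtype).relIndex Q = (δ.range.comap π).index := by
        rw [relIndex, subgroupOf, comap_map_eq_self_of_injective Q.subtype_injective]
      rw [e1]
      have e2 : (δ.range.comap π).index = δ.range.index := index_comap_of_surjective _ hπs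
      have e3 : δ.range.index * Nat.card δ.range = Nat.card V := by rw [mul_comm]; exact card_mul_index _
      have e4 : 2 ^ 3 ≤ Nat.card V := index_of_rk hrk
      have e5 : Nat.card δ.range ≤ δ.range.index := by
        have h6 : δ.ker.index = Nat.card δ.range := index_ker δ
        rw [← h6, ← e2]
        exact Nat.le_of_dvd (Nat.pos_of_ne_zero FiniteIndex.index_ne_zero) (index_dvd_of_le hle)
      obtain ⟨j, hj⟩ : ∃ j, δ.range.index = 2 ^ j := by
        obtain ⟨m, hm⟩ := hQ2.exists_card_eq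
        have h7 : δ.range.index ∣ 2 ^ m := by
          rw [← hm, ← e2]
          exact index_dvd_card _
        obtain ⟨j, -, hj⟩ := (Nat.dvd_prime_pow Nat.prime_two).1 h7
        exact ⟨j, hj⟩
      rw [e2]
      rw [hj] at e3 e5 ⊢
      have h8 : 2 ≤ j := by
        by_contra hcon
        have h9 : 2 ^ j ≤ 2 := by
          calc 2 ^ j ≤ 2 ^ 1 := Nat.pow_le_pow_right (by norm_num) (by omega)
            _ = 2 := by norm_num
        have h10 : 2 ^ j * Nat.card δ.range ≤ 2 * 2 := Nat.mul_le_mul h9 (e5.trans h9)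
        omega
      calc 4 = 2 ^ 2 := by norm_num
        _ ≤ 2 ^ j := Nat.pow_le_pow_right (by norm_num) h8

end Cfsg.Agent.H951.K547
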