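import Cfsg.Agent.H821.K547.Defs

/-!
# S4547: criteria for the number of generators of a 2-group (helper951)

* `rk_of_sq` : all squares of `P` lie in `N`, `2 ^ n ≤ |P : N|` imply `Rk n P`;
* `Sq Q` : the subgroup generated by the squares of `Q`; `four_le_of_rk`, `eight_le_of_rk`.
-/

set_option autoImplicit false

namespace Cfsg.Agent.H951.K547

open Cfsg.Agent.H821.K547

universe u v

/-- a group of exponent two and order at least `2 ^ n` -/
theorem rk_of_exp_two {n : ℕ} {A : Type u} [Group A] [Finite A] (h : ∀ a : A, a ^ 2 = 1) (hc : 2 ^ n ≤ Nat.card A) :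
    Rk n A := by
  classical
  have hcomm : ∀ a b : A, a * b = b * a := by
    intro a b
    have h1 := h (a * b)
    have ha : a⁻¹ = a := inv_eq_of_mul_eq_one_left (by rw [← pow_two]; exact h a)
    have hb : b⁻¹ = b := inv_eq_of_mul_eq_one_left (by rw [← pow_two]; exact h b)
    have h2 : (a * b)⁻¹ = a * b := inv_eq_of_mul_eq_one_left (by rw [← pow_two]; exact h1)
    rw [← h2, mul_inv_rev, ha, hb]
  letI : CommGroup A := { (inferInstance : Group A) with mul_comm := hcomm }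
  letI : Module (ZMod 2) (Additive A) := AddCommGroup.zmodModule (n := 2) (fun x => h x.toMul)
  have hfin : Finite (Additive A) := inferInstanceAs (Finite A)
  have : Module.Finite (ZMod 2) (Additive A) := Module.Finite.of_finite
  let d := Module.finrank (ZMod 2) (Additive A)
  have hd : Nat.card A = 2 ^ d := by
    have h1 : Nat.card (Additive A) = Nat.card (ZMod 2) ^ d := Module.natCard_eq_pow_finrank
    rw [Nat.card_zmod] at h1
    exact h1
  have hnd : n ≤ d := by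
    rw [hd] at hc
    exact (Nat.pow_le_pow_iff_right (by norm_num)).1 hc
  let e : Additive A ≃ₗ[ZMod 2] (Fin d → ZMod 2) := LinearEquiv.ofFinrankEq _ _ (by rw [Module.finrank_fin_fun])
  let g : A →* Multiplicative (Fin n → ZMod 2) :=
    { toFun := fun a => Multiplicative.ofAdd fun i => e (Additive.ofMul a) (Fin.castLE hnd i)
      map_one' := by
        simp only [ofMul_one, map_zero]
        rfl
      map_mul' := fun a b => by
        simp only [ofMul_mul, map_add]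
        rfl }
  refine ⟨g, fun v => ?_⟩
  obtain ⟨a, ha⟩ := e.surjective (fun j => if h : (j : ℕ) < n then v.toAdd ⟨j, h⟩ else 0)
  refine ⟨a.toMul, ?_⟩
  apply Multiplicative.toAdd.injective
  funext i
  show e (Additive.ofMul a.toMul) (Fin.castLE hnd i) = v.toAdd i
  rw [ofMul_toMul, ha]
  simp

theorem rk_of_surj {n : ℕ} {P : Type u} {P' : Type v} [Group P] [Group P'] (f : P →* P') (hf : Function.Surjective f)
    (h : Rk n P') : Rk n P := by
  obtain ⟨g, hg⟩ := h
  exact ⟨g.comp f, hg.comp hf⟩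

/-- a subgroup containing all squares is normal -/
theorem normal_of_sq {P : Type u} [Group P] {N : Subgroup P} (hN : ∀ x : P, x ^ 2 ∈ N) : N.Normal := by
  refine ⟨fun n hn g => ?_⟩
  have h1 : g * n * g⁻¹ = (g * n) ^ 2 * n⁻¹ * (g ^ 2)⁻¹ := by
    rw [pow_two, pow_two]
    group
  rw [h1]
  exact mul_mem (mul_mem (hN _) (inv_mem hn)) (inv_mem (hN _))

/-- **criterion** -/
theorem rk_of_sq {n : ℕ} {P : Type u} [Group P] [Finite P] {N : Subgroup P} (hN : ∀ x : P, x ^ 2 ∈ N)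
    (h : 2 ^ n ≤ N.index) : Rk n P := by
  have := normal_of_sq hN
  refine rk_of_surj (QuotientGroup.mk' N) (QuotientGroup.mk'_surjective N) (rk_of_exp_two (fun a => ?_) h)
  obtain ⟨x, rfl⟩ := QuotientGroup.mk'_surjective N a
  rw [← map_pow]
  exact (QuotientGroup.eq_one_iff _).2 (hN x)

/-- the kernel of a map onto an elementary abelian group -/
theorem exists_sq_of_rk {n : ℕ} {P : Type u} [Group P] (h : Rk n P) :
    ∃ N : Subgroup P, (∀ x : P, x ^ 2 ∈ N) ∧ N.index = 2 ^ n := by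
  obtain ⟨f, hf⟩ := h
  refine ⟨f.ker, fun x => ?_, ?_⟩
  · rw [MonoidHom.mem_ker, map_pow]
    have h2 : ∀ a : ZMod 2, a + a = 0 := by decide
    apply Multiplicative.toAdd.injective
    funext i
    rw [pow_two]
    exact h2 _
  · rw [Subgroup.index_ker, MonoidHom.range_eq_top.2 hf, Subgroup.card_top, Nat.card_congr Multiplicative.toAdd,
      Nat.card_fun, Nat.card_zmod, Nat.card_fin]

theorem rk_mono {m n : ℕ} (h : m ≤ n) {P : Type u} [Group P] [Finite P] (hP : Rk n P) : Rk m P := by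
  obtain ⟨N, h1, h2⟩ := exists_sq_of_rk hP
  exact rk_of_sq h1 (by rw [h2]; exact Nat.pow_le_pow_right (by norm_num) h)

/-! ### the subgroup of the squares -/

variable {Y : Type u} [Group Y]

/-- the subgroup generated by the squares of `Q` -/
def Sq (Q : Subgroup Y) : Subgroup Y := Subgroup.closure {y | ∃ x ∈ Q, y = x ^ 2}

theorem sq_mem_Sq {Q : Subgroup Y} {x : Y} (hx : x ∈ Q) : x ^ 2 ∈ Sq Q := Subgroup.subset_closure ⟨x, hx, rfl⟩

theorem Sq_le_iff {Q N : Subgroup Y} : Sq Q ≤ N ↔ ∀ x ∈ Q, x ^ 2 ∈ N := by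
  unfold Sq
  rw [Subgroup.closure_le]
  exact ⟨fun h x hx => h ⟨x, hx, rfl⟩, fun h => by rintro _ ⟨x, hx, rfl⟩; exact h x hx⟩

theorem Sq_le (Q : Subgroup Y) : Sq Q ≤ Q := Sq_le_iff.2 fun x hx => pow_mem hx 2

theorem Sq_map {Q : Subgroup Y} {φ : MulAut Y} (h : ∀ x, φ x ∈ Q ↔ x ∈ Q) : ∀ x ∈ Sq Q, φ x ∈ Sq Q := by
  have h1 : Sq Q ≤ (Sq Q).comap φ.toMonoidHom := by
    rw [Sq_le_iff]
    intro x hx
    show φ (x ^ 2) ∈ Sq Q
    rw [map_pow]
    exact sq_mem_Sq ((h x).2 hx)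
  exact h1

/-- conjugation and commutators in `Q` -/
theorem comm_mem_Sq {Q : Subgroup Y} {a b : Y} (ha : a ∈ Q) (hb : b ∈ Q) : a * b * a⁻¹ * b⁻¹ ∈ Sq Q := by
  have h1 : a * b * a⁻¹ * b⁻¹ = (a * b) ^ 2 * (b⁻¹ * a ^ 2 * b)⁻¹ * (b ^ 2)⁻¹ := by
    rw [pow_two, pow_two, pow_two]
    group
  have h2 : b⁻¹ * a ^ 2 * b = (b⁻¹ * a * b) ^ 2 := by
    rw [pow_two, pow_two]
    group
  rw [h1, h2]
  exact mul_mem (mul_mem (sq_mem_Sq (mul_mem ha hb)) (inv_mem (sq_mem_Sq (mul_mem (mul_mem (inv_mem hb) ha) hb))))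
    (inv_mem (sq_mem_Sq hb))

theorem index_of_rk {n : ℕ} {Q : Subgroup Y} [Finite Y] (h : Rk n Q) : 2 ^ n ≤ (Sq Q).relIndex Q := by
  obtain ⟨N, h1, h2⟩ := exists_sq_of_rk h
  have h3 : (Sq Q).subgroupOf Q ≤ N := by
    intro x hx
    have h4 : Sq Q ≤ N.map Q.subtype := by
      rw [Sq_le_iff]
      intro y hy
      exact ⟨⟨y, hy⟩ ^ 2, h1 _, rfl⟩
    obtain ⟨y, hy, e⟩ := h4 (Subgroup.mem_subgroupOf.1 hx)
    rwa [← Subtype.ext (e : (y : Y) = x)]
  have h5 := Subgroup.index_dvd_of_le h3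
  rw [h2] at h5
  exact Nat.le_of_dvd (Nat.pos_of_ne_zero Subgroup.FiniteIndex.index_ne_zero) h5

end Cfsg.Agent.H951.K547
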