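import Cfsg.Agent.H951.K547.Rk

/-!
# S4547: the number of generators of a Sylow 2-subgroup of a cyclic extension of a perfect group (helper951)

`ext_main` : `S'` normal in `G`, `S' ≤ [G, G]`, `G = S' <t>`, `|G : S'| = 2 ^ k`, `k ≥ 1`, `t ∈ P`, `P` a Sylow 2-subgroup;
`K ≤ Q = P ∩ S'` contains the squares of `Q` and `[t, Q]`, `|Q : K| ≥ 4`. Then `P` maps onto `C_2 ^ 3`.
-/

set_option autoImplicit false

namespace Cfsg.Agent.H951.K547

open Cfsg.Agent.H821.K547 Subgroup MulAction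

universe u

theorem ext_main {G : Type u} [Group G] [Finite G] (S' : Subgroup G) [hn : S'.Normal] (hperf : S' ≤ commutator G) (t : G)
    (hgen : ∀ g : G, ∃ i : ℤ, ∃ s ∈ S', g = s * t ^ i) {k : ℕ} (hk : S'.index = 2 ^ k) (hk0 : 1 ≤ k)
    (P : Sylow 2 G) (ht : t ∈ (P : Subgroup G)) (K : Subgroup G) (hKQ : K ≤ (P : Subgroup G) ⊓ S')
    (hsq : ∀ x ∈ (P : Subgroup G) ⊓ S', x ^ 2 ∈ K) (htK : ∀ x ∈ (P : Subgroup G) ⊓ S', t * x * t⁻¹ * x⁻¹ ∈ K)
    (h4 : 4 ≤ K.relIndex ((P : Subgroup G) ⊓ S')) : Rk 3 P := by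
  classical
  obtain ⟨P0, hP0⟩ : ∃ P0 : Subgroup G, P0 = (P : Subgroup G) := ⟨_, rfl⟩
  have hodd : ¬ 2 ∣ P0.index := by rw [hP0]; exact P.not_dvd_index
  suffices hgoal : Rk 3 P0 by rwa [hP0] at hgoal
  rw [← hP0] at ht hKQ hsq htK h4
  clear hP0 P
  have hdec : ∀ g ∈ P0, ∃ i : ℕ, ∃ q ∈ P0 ⊓ S', g = q * t ^ i := by
    intro g hg
    obtain ⟨i, s, hs, e⟩ := hgen g
    have hi : t ^ i ∈ zpowers t := ⟨i, rfl⟩
    rw [← mem_powers_iff_mem_zpowers] at hi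
    obtain ⟨n, hn⟩ := hi
    have hn' : t ^ n = t ^ i := hn
    rw [← hn'] at e
    refine ⟨n, s, ⟨?_, hs⟩, e⟩
    have : s = g * (t ^ n)⁻¹ := by rw [e]; group
    rw [this]
    exact P0.mul_mem hg (P0.inv_mem (P0.pow_mem ht n))
  have hKP : K ≤ P0 := hKQ.trans inf_le_left
  -- `K` is normal in `P0`
  have hKt : ∀ n : ℕ, ∀ x ∈ K, t ^ n * x * (t ^ n)⁻¹ ∈ K := by
    intro n
    induction n with
    | zero => intro x hx; simpa using hx
    | succ n ih =>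
      intro x hx
      have h1 : t ^ (n + 1) * x * (t ^ (n + 1))⁻¹ = t ^ n * ((t * x * t⁻¹ * x⁻¹) * x) * (t ^ n)⁻¹ := by
        rw [pow_succ]
        group
      rw [h1]
      exact ih _ (mul_mem (htK x (hKQ hx)) hx)
  have hKq : ∀ q ∈ P0 ⊓ S', ∀ x ∈ K, q * x * q⁻¹ ∈ K := by
    intro q hq x hx
    have h1 : q * x * q⁻¹ = (q * x) ^ 2 * x⁻¹ * (q ^ 2)⁻¹ := by
      rw [pow_two, pow_two]
      group
    rw [h1]
    exact mul_mem (mul_mem (hsq _ (mul_mem hq (hKQ hx))) (inv_mem hx)) (inv_mem (hsq _ hq))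
  have hN : (K.subgroupOf P0).Normal := by
    refine ⟨fun x hx g => ?_⟩
    rw [mem_subgroupOf] at hx ⊢
    obtain ⟨i, q, hq, e⟩ := hdec g g.2
    show (g : G) * x * (g : G)⁻¹ ∈ K
    have h1 : (g : G) * x * (g : G)⁻¹ = q * (t ^ i * x * (t ^ i)⁻¹) * q⁻¹ := by
      rw [e]
      group
    rw [h1]
    exact hKq q hq _ (hKt i _ hx)
  let μ : P0 →* P0 ⧸ K.subgroupOf P0 := QuotientGroup.mk' _
  have hμs : Function.Surjective μ := QuotientGroup.mk'_surjective _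
  have hμ1 : ∀ x : P0, μ x = 1 ↔ (x : G) ∈ K := fun x => (QuotientGroup.eq_one_iff x).trans mem_subgroupOf
  let T : P0 := ⟨t, ht⟩
  -- the quotient is commutative
  have hqq : ∀ a b : P0, (a : G) ∈ P0 ⊓ S' → (b : G) ∈ P0 ⊓ S' → Commute (μ a) (μ b) := by
    intro a b ha hb
    have h1 : μ (a * b * a⁻¹ * b⁻¹) = 1 := by
      rw [hμ1]
      have h2 : ((a * b * a⁻¹ * b⁻¹ : P0) : G) =
          ((a : G) * b) ^ 2 * (((b : G)⁻¹ * a * b) ^ 2)⁻¹ * ((b : G) ^ 2)⁻¹ := by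
        simp only [Subgroup.coe_mul, Subgroup.coe_inv, pow_two]
        group
      rw [h2]
      exact mul_mem (mul_mem (hsq _ (mul_mem ha hb)) (inv_mem (hsq _ (mul_mem (mul_mem (inv_mem hb) ha) hb))))
        (inv_mem (hsq _ hb))
    rw [map_mul, map_mul, map_mul, map_inv, map_inv, mul_inv_eq_one, mul_inv_eq_iff_eq_mul] at h1
    exact h1
  have htq : ∀ a : P0, (a : G) ∈ P0 ⊓ S' → Commute (μ T) (μ a) := by
    intro a ha
    have h1 : μ (T * a * T⁻¹ * a⁻¹) = 1 := by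
      rw [hμ1]
      exact htK _ ha
    rw [map_mul, map_mul, map_mul, map_inv, map_inv, mul_inv_eq_one, mul_inv_eq_iff_eq_mul] at h1
    exact h1
  have hform : ∀ a : P0 ⧸ K.subgroupOf P0, ∃ (i : ℕ) (q : P0), (q : G) ∈ P0 ⊓ S' ∧ a = μ q * μ T ^ i := by
    intro a
    obtain ⟨g, rfl⟩ := hμs a
    obtain ⟨i, q, hq, e⟩ := hdec g g.2
    refine ⟨i, ⟨q, hq.1⟩, hq, ?_⟩
    rw [← map_pow, ← map_mul]
    exact congrArg μ (Subtype.ext e)
  have hcomm : ∀ a b : P0 ⧸ K.subgroupOf P0, a * b = b * a := by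
    intro a b
    obtain ⟨i, q, hq, rfl⟩ := hform a
    obtain ⟨j, r, hr, rfl⟩ := hform b
    have h1 : Commute (μ q) (μ r * μ T ^ j) := (hqq q r hq hr).mul_right ((htq q hq).symm.pow_right j)
    have h2 : Commute (μ T ^ i) (μ r * μ T ^ j) := ((htq r hr).pow_left i).mul_right (Commute.pow_pow_self _ i j)
    exact h1.mul_left h2
  letI : CommGroup (P0 ⧸ K.subgroupOf P0) :=
    { (inferInstance : Group (P0 ⧸ K.subgroupOf P0)) with mul_comm := hcomm }
  have hsq1 : ∀ a : P0, (a : G) ∈ P0 ⊓ S' → μ a ^ 2 = 1 := by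
    intro a ha
    rw [← map_pow, hμ1]
    exact hsq _ ha
  -- the transfer
  let tr : G →* P0 ⧸ K.subgroupOf P0 := MonoidHom.transfer μ
  have htr1 : ∀ s ∈ S', tr s = 1 := fun s hs => (Abelianization.commutator_subset_ker tr) (hperf hs)
  obtain ⟨z, hz, hz2⟩ : ∃ z, tr t = μ T ^ P0.index * z ∧ z ^ 2 = 1 := by
    have := P0.fintypeQuotientOfFiniteIndex
    have key : ∀ q : Quotient (orbitRel (zpowers t) (G ⧸ P0)), ∃ zq, zq ^ 2 = 1 ∧
        μ ⟨q.out.out⁻¹ * t ^ Function.minimalPeriod (t • ·) q.out * q.out.out,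
          QuotientGroup.out_conj_pow_minimalPeriod_mem P0 t q.out⟩ =
          μ T ^ Function.minimalPeriod (t • ·) q.out * zq := by
      intro q
      obtain ⟨n, hn'⟩ : ∃ n, n = Function.minimalPeriod (t • ·) q.out := ⟨_, rfl⟩
      have hmem := QuotientGroup.out_conj_pow_minimalPeriod_mem P0 t q.out
      simp only [← hn'] at hmem ⊢
      obtain ⟨g, hg⟩ : ∃ g : G, g = q.out.out := ⟨_, rfl⟩
      rw [← hg] at hmem
      simp only [← hg]
      have h1 : (t ^ n)⁻¹ * (g⁻¹ * t ^ n * g) ∈ S' := by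
        obtain ⟨i, s, hs, e⟩ := hgen g
        rw [← QuotientGroup.eq_one_iff (N := S')]
        have h2 : (QuotientGroup.mk g : G ⧸ S') = QuotientGroup.mk t ^ i := by
          rw [e, QuotientGroup.mk_mul, (QuotientGroup.eq_one_iff s).2 hs, one_mul]
          rfl
        have h3 : (QuotientGroup.mk ((t ^ n)⁻¹ * (g⁻¹ * t ^ n * g)) : G ⧸ S') =
            ((QuotientGroup.mk t : G ⧸ S') ^ n)⁻¹ * ((QuotientGroup.mk g : G ⧸ S')⁻¹ * (QuotientGroup.mk t) ^ n *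
              QuotientGroup.mk g) := rfl
        rw [h3, h2]
        group
      refine ⟨μ ⟨(t ^ n)⁻¹ * (g⁻¹ * t ^ n * g), P0.mul_mem (P0.inv_mem (P0.pow_mem ht n)) hmem⟩,
        hsq1 _ ⟨P0.mul_mem (P0.inv_mem (P0.pow_mem ht n)) hmem, h1⟩, ?_⟩
      rw [← map_pow, ← map_mul]
      congr 1
      apply Subtype.ext
      show g⁻¹ * t ^ n * g = t ^ n * ((t ^ n)⁻¹ * (g⁻¹ * t ^ n * g))
      group
    choose zq hzq1 hzq2 using key
    refine ⟨∏ q, zq q, ?_, ?_⟩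
    · show MonoidHom.transfer μ t = _
      rw [MonoidHom.transfer_eq_prod_quotient_orbitRel_zpowers_quot, index_eq_sum_minimalPeriod P0 t,
        ← Finset.prod_pow_eq_pow_sum, ← Finset.prod_mul_distrib]
      exact Finset.prod_congr rfl fun q _ => hzq2 q
    · rw [← Finset.prod_pow]
      exact Finset.prod_eq_one fun q _ => hzq1 q
  -- `t ^ 2 ^ k ∈ K`
  have htS : t ^ 2 ^ k ∈ S' := by
    rw [← hk]
    exact S'.pow_index_mem t
  have hTk : μ T ^ 2 ^ k = 1 := by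
    have h1 : (tr t) ^ 2 ^ k = 1 := by
      rw [← map_pow]
      exact htr1 _ htS
    have h2 : z ^ 2 ^ k = 1 := by
      obtain ⟨j, rfl⟩ : ∃ j, k = j + 1 := ⟨k - 1, by omega⟩
      rw [pow_succ', pow_mul, hz2, one_pow]
    rw [hz, mul_pow, h2, mul_one, ← pow_mul, mul_comm, pow_mul] at h1
    have h3 : (μ T ^ 2 ^ k) ^ 2 = 1 := by
      rw [← map_pow μ T (2 ^ k)]
      exact hsq1 _ ⟨pow_mem ht _, htS⟩
    obtain ⟨m, hm⟩ : ∃ m, P0.index = 2 * m + 1 := by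
      rcases Nat.even_or_odd' P0.index with ⟨m, h | h⟩
      · exact absurd ⟨m, h⟩ hodd
      · exact ⟨m, h⟩
    rw [hm, pow_succ, pow_mul, h3, one_pow, one_mul] at h1
    exact h1
  -- the subgroup
  refine rk_of_sq (N := (zpowers ((μ T) ^ 2)).comap μ) (fun g => ?_) ?_
  · rw [mem_comap, map_pow]
    obtain ⟨i, q, hq, e⟩ := hform (μ g)
    rw [e, mul_pow, hsq1 q hq, one_mul, ← pow_mul, mul_comm, pow_mul]
    exact pow_mem (mem_zpowers _) i
  · rw [index_comap_of_surjective _ hμs]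
    have h1 := (zpowers ((μ T) ^ 2)).card_mul_index
    have h2 : Nat.card (zpowers ((μ T) ^ 2)) ≤ 2 ^ (k - 1) := by
      rw [Nat.card_zpowers]
      apply orderOf_le_of_pow_eq_one (pow_pos (by norm_num) _)
      rw [← pow_mul, ← pow_succ', show k - 1 + 1 = k by omega]
      exact hTk
    have h3 : Nat.card (P0 ⧸ K.subgroupOf P0) = K.relIndex (P0 ⊓ S') * 2 ^ k := by
      have h5 : K.relIndex (P0 ⊓ S') * (P0 ⊓ S').relIndex P0 = K.relIndex P0 := relIndex_mul_relIndex K _ P0 hKQ inf_le_left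
      have h6 : (P0 ⊓ S').relIndex P0 = 2 ^ k := by
        rw [inf_comm, inf_relIndex_right]
        have h7 : S'.relIndex (P0 ⊔ S') = S'.relIndex P0 := relIndex_sup_right P0 S'
        have h8 : P0 ⊔ S' = ⊤ := by
          rw [eq_top_iff]
          intro g _
          obtain ⟨i, s, hs, rfl⟩ := hgen g
          exact mul_mem (mem_sup_right hs) (mem_sup_left (zpow_mem ht i))
        rw [← h7, h8, relIndex_top_right, hk]
      rw [← h6, h5]
      rfl
    rw [h3] at h1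
    have h9 : 2 ^ k = 2 * 2 ^ (k - 1) := by rw [← pow_succ', show k - 1 + 1 = k by omega]
    have h10 : 0 < 2 ^ (k - 1) := pow_pos (by norm_num) _
    by_contra hcon
    rw [not_le] at hcon
    have h11 : Nat.card (zpowers ((μ T) ^ 2)) * (zpowers ((μ T) ^ 2)).index ≤ 2 ^ (k - 1) * 7 :=
      Nat.mul_le_mul h2 (by omega)
    have h12 : 4 * 2 ^ k ≤ K.relIndex (P0 ⊓ S') * 2 ^ k := Nat.mul_le_mul_right _ h4
    omega

end Cfsg.Agent.H951.K547
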